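import Cfsg.Prelude.Def_LieChev
import Mathlib

/-!
# Chevalley groups over isomorphic fields are isomorphic (helper27)
-/

set_option autoImplicit false

namespace Cfsg.Agent.Lib.Helper27.ChevIso

open Cfsg.Lie Matrix

variable {F F' : Type*} [Field F] [Field F'] (D : ChevalleyDatum)

theorem xMat_map_hom (f : F →+* F') (r : Fin D.nroots) (t : F) :
    (D.xMat F r t).map f = D.xMat F' r (f t) := by
  ext row col
  rw [Matrix.map_apply]
  rcases col with i | s
  · rcases row with i' | u
    · simp only [ChevalleyDatum.xMat, Matrix.of_apply]; split_ifs <;> simp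
    · simp only [ChevalleyDatum.xMat, Matrix.of_apply]; split_ifs <;> simp
  · by_cases h1 : s = r
    · subst h1
      rcases row with i' | u
      · simp [ChevalleyDatum.xMat]
      · simp only [ChevalleyDatum.xMat, Matrix.of_apply, if_true]; split_ifs <;> simp
    · by_cases h2 : s.val = D.negIdx.getD r.val 0
      · rcases row with i' | u
        · simp [ChevalleyDatum.xMat, h1, h2]
        · simp only [ChevalleyDatum.xMat, Matrix.of_apply, h1, h2, if_true, if_false]; split_ifs <;> simp
      · rcases row with i' | u
        · simp only [ChevalleyDatum.xMat, Matrix.of_apply, h1, h2, if_false, map_zero]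
        · simp only [ChevalleyDatum.xMat, Matrix.of_apply, h1, h2, if_false]
          rw [map_add, map_list_sum, List.map_map]
          congr 1
          · split_ifs <;> simp
          · congr 1
            apply List.map_congr_left
            intro km _
            simp

/-- the isomorphism of general linear groups induced by an isomorphism of fields -/
noncomputable def glIso (e : F ≃+* F') : GL D.Idx F ≃* GL D.Idx F' :=
  Units.mapEquiv (RingEquiv.mapMatrix e).toMulEquiv

theorem coe_glIso (e : F ≃+* F') (g : GL D.Idx F) :
    ((glIso D e g : GL D.Idx F') : Matrix D.Idx D.Idx F') = (g : Matrix D.Idx D.Idx F).map e := rfl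

theorem coe_glIso_symm (e : F ≃+* F') (g : GL D.Idx F') :
    (((glIso D e).symm g : GL D.Idx F) : Matrix D.Idx D.Idx F) = (g : Matrix D.Idx D.Idx F').map e.symm := rfl

theorem map_group (e : F ≃+* F') : (D.group F).map (glIso D e).toMonoidHom = D.group F' := by
  unfold ChevalleyDatum.group
  rw [MonoidHom.map_closure]
  congr 1
  ext g
  constructor
  · rintro ⟨h, ⟨r, t, hh⟩, rfl⟩
    refine ⟨r, e t, ?_⟩
    show ((glIso D e h : GL D.Idx F') : Matrix D.Idx D.Idx F') = _
    rw [coe_glIso, hh]
    exact xMat_map_hom D e.toRingHom r t
  · rintro ⟨r, t, hg⟩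
    refine ⟨(glIso D e).symm g, ⟨r, e.symm t, ?_⟩, ?_⟩
    · rw [coe_glIso_symm, hg]
      exact xMat_map_hom D e.symm.toRingHom r t
    · exact (glIso D e).apply_symm_apply g

/-- Chevalley groups over isomorphic fields are isomorphic -/
noncomputable def groupIso (e : F ≃+* F') : D.group F ≃* D.group F' :=
  ((glIso D e).subgroupMap (D.group F)).trans (MulEquiv.subgroupCongr (map_group D e))

end Cfsg.Agent.Lib.Helper27.ChevIso
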