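import Cfsg.Prelude.Def_LieChev
import Cfsg.Agent.Lib.Helper28.TCBasic
import Mathlib

/-!
# Vectors over `ZMod 3` of the adjoint module of type `G₂` as numbers in base three (helper27)
-/

set_option autoImplicit false

namespace Cfsg.Agent.Lib.Helper27.G2Vec

open Cfsg.Lie Matrix Cfsg.Agent.Lib.Helper28

/-- position of a basis vector -/
def enc : chevG2.Idx → ℕ
  | Sum.inl i => i.val
  | Sum.inr r => 2 + r.val

/-- digit in base three -/
def dig (m k : ℕ) : ℕ := m / 3 ^ k % 3

def vecOf (m : ℕ) : chevG2.Idx → ZMod 3 := fun a => ((dig m (enc a) : ℕ) : ZMod 3)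

theorem dig_succ (m k : ℕ) : dig (m / 3) k = dig m (k + 1) := by
  unfold dig
  rw [Nat.div_div_eq_div_mul, pow_succ']

theorem dig_zero (m : ℕ) : dig m 0 = m % 3 := by simp [dig]

/-- scalar product of a row with the digits of a number (with an accumulator) -/
noncomputable def dotN (l : List ℕ) : ℕ → ℕ → ℕ :=
  List.rec (motive := fun _ => ℕ → ℕ → ℕ) (fun _ acc => acc)
    (fun a _ ih m acc => force (Nat.div m 3) (fun m' =>
      force (Nat.add acc (Nat.mul a (Nat.mod m 3))) (fun acc' => ih m' acc'))) l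

theorem dotN_eq (l : List ℕ) : ∀ m acc : ℕ,
    dotN l m acc = acc + ∑ k ∈ Finset.range l.length, l.getD k 0 * dig m k := by
  induction l with
  | nil => intro m acc; simp [dotN]
  | cons a l ih =>
    intro m acc
    have e : dotN (a :: l) m acc = force (Nat.div m 3) (fun m' =>
      force (Nat.add acc (Nat.mul a (Nat.mod m 3))) (fun acc' => dotN l m' acc')) := rfl
    rw [e, force_eq, force_eq, ih, List.length_cons, Finset.sum_range_succ']
    have e2 : ∀ k, (a :: l).getD (k + 1) 0 * dig m (k + 1) = l.getD k 0 * dig (m / 3) k := by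
      intro k
      rw [dig_succ]
      rfl
    simp only [e2]
    have e3 : (a :: l).getD 0 0 * dig m 0 = a * (m % 3) := by rw [dig_zero]; rfl
    rw [e3]
    show acc + a * (m % 3) + ∑ x ∈ Finset.range l.length, l.getD x 0 * dig (m / 3) x = _
    ring

theorem sum_enc (f : ℕ → ZMod 3) : ∑ a : chevG2.Idx, f (enc a) = ∑ k ∈ Finset.range 14, f k := by
  rw [Fintype.sum_sum_type]
  show ∑ i : Fin 2, f i.val + ∑ r : Fin 12, f (2 + r.val) = _
  rw [Fin.sum_univ_eq_sum_range (fun k => f k) 2, Fin.sum_univ_eq_sum_range (fun k => f (2 + k)) 12,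
    show (14 : ℕ) = 2 + 12 from rfl, Finset.sum_range_add]

/-- the matrix has the given rows -/
def HM (M : Matrix chevG2.Idx chevG2.Idx (ZMod 3)) (rows : List (List ℕ)) : Prop :=
  (∀ r ∈ rows, r.length = 14) ∧ rows.length = 14 ∧
    ∀ row col, M row col = (((rows.getD (enc row) []).getD (enc col) 0 : ℕ) : ZMod 3)

theorem HM.of_check (M : Matrix chevG2.Idx chevG2.Idx (ZMod 3)) (rows : List (List ℕ))
    (h0 : ∀ r ∈ rows, r.length = 14) (h1 : rows.length = 14)
    (h2 : ∀ p : chevG2.Idx × chevG2.Idx,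
      M p.1 p.2 = (((rows.getD (enc p.1) []).getD (enc p.2) 0 : ℕ) : ZMod 3)) : HM M rows :=
  ⟨h0, h1, fun r c => h2 (r, c)⟩

theorem enc_lt (a : chevG2.Idx) : enc a < 14 := by
  rcases a with i | r
  · have : i.val < 2 := i.2
    show i.val < 14
    omega
  · have : r.val < 12 := r.2
    show 2 + r.val < 14
    omega

theorem exists_enc {k : ℕ} (hk : k < 14) : ∃ a : chevG2.Idx, enc a = k := by
  by_cases h : k < 2
  · exact ⟨Sum.inl ⟨k, h⟩, rfl⟩
  · refine ⟨Sum.inr ⟨k - 2, ?_⟩, ?_⟩
    · show k - 2 < 12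
      omega
    · show 2 + (k - 2) = k
      omega

theorem enc_injective : Function.Injective enc := by
  intro a b h
  rcases a with i | r <;> rcases b with j | s
  · exact congrArg Sum.inl (Fin.ext h)
  · have : i.val < 2 := i.2
    have h' : i.val = 2 + s.val := h
    omega
  · have : j.val < 2 := j.2
    have h' : 2 + r.val = j.val := h
    omega
  · have h' : 2 + r.val = 2 + s.val := h
    exact congrArg Sum.inr (Fin.ext (by omega))

theorem HM.mulVec_apply {M : Matrix chevG2.Idx chevG2.Idx (ZMod 3)} {rows : List (List ℕ)} (h : HM M rows)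
    (m : ℕ) (a : chevG2.Idx) :
    (M *ᵥ vecOf m) a = ((dotN (rows.getD (enc a) []) m 0 : ℕ) : ZMod 3) := by
  have hl : (rows.getD (enc a) []).length = 14 := by
    apply h.1
    rw [List.getD_eq_getElem _ _ (by rw [h.2.1]; exact enc_lt a)]
    exact List.getElem_mem _
  rw [dotN_eq, hl, zero_add, Nat.cast_sum]
  simp only [Matrix.mulVec, dotProduct]
  rw [← sum_enc (fun k => (((rows.getD (enc a) []).getD k 0 * dig m k : ℕ) : ZMod 3))]
  apply Finset.sum_congr rfl
  intro col _
  rw [h.2.2, Nat.cast_mul]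
  rfl

/-- comparison of the image of a vector with a vector -/
noncomputable def chkRows (rows : List (List ℕ)) : ℕ → ℕ → Bool :=
  List.rec (motive := fun _ => ℕ → ℕ → Bool) (fun _ _ => true)
    (fun row _ ih m t => Nat.beq (Nat.mod (dotN row m 0) 3) (Nat.mod t 3) &&
      force (Nat.div t 3) (fun t' => ih m t')) rows

theorem chkRows_spec (rows : List (List ℕ)) : ∀ m t : ℕ, chkRows rows m t = true →
    ∀ r < rows.length, dotN (rows.getD r []) m 0 % 3 = dig t r := by
  induction rows with
  | nil => intro m t _ r hr; exact absurd hr (by simp)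
  | cons row rows ih =>
    intro m t h r hr
    have e : chkRows (row :: rows) m t = (Nat.beq (Nat.mod (dotN row m 0) 3) (Nat.mod t 3) &&
      force (Nat.div t 3) (fun t' => chkRows rows m t')) := rfl
    rw [e, force_eq, Bool.and_eq_true] at h
    cases r with
    | zero =>
      rw [dig_zero]
      exact eq_of_nbeq h.1
    | succ r =>
      rw [← dig_succ]
      exact ih m (t / 3) h.2 r (by simpa using hr)

theorem HM.mulVec {M : Matrix chevG2.Idx chevG2.Idx (ZMod 3)} {rows : List (List ℕ)} (h : HM M rows)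
    (m t : ℕ) (hc : chkRows rows m t = true) : M *ᵥ vecOf m = vecOf t := by
  funext a
  rw [h.mulVec_apply, ← ZMod.natCast_mod, chkRows_spec rows m t hc (enc a) (by rw [h.2.1]; exact enc_lt a)]
  rfl

theorem eq_of_dig : ∀ (N a b : ℕ), a < 3 ^ N → b < 3 ^ N → (∀ k < N, dig a k = dig b k) → a = b := by
  intro N
  induction N with
  | zero => intro a b ha hb _; simp at ha hb; omega
  | succ N ih =>
    intro a b ha hb h
    have h0 := h 0 (by omega)
    rw [dig_zero, dig_zero] at h0
    have h1 : a / 3 = b / 3 := by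
      apply ih
      · rw [pow_succ] at ha; omega
      · rw [pow_succ] at hb; omega
      · intro k hk
        rw [dig_succ, dig_succ]
        exact h (k + 1) (by omega)
    omega

theorem vecOf_inj {a b : ℕ} (ha : a < 3 ^ 14) (hb : b < 3 ^ 14) (h : vecOf a = vecOf b) : a = b := by
  apply eq_of_dig 14 a b ha hb
  intro k hk
  obtain ⟨i, rfl⟩ := exists_enc hk
  have h1 := congrFun h i
  unfold vecOf at h1
  have h2 := (ZMod.natCast_eq_natCast_iff' _ _ _).mp h1
  have a3 : dig a (enc i) < 3 := Nat.mod_lt _ (by norm_num)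
  have b3 : dig b (enc i) < 3 := Nat.mod_lt _ (by norm_num)
  rwa [Nat.mod_eq_of_lt a3, Nat.mod_eq_of_lt b3] at h2

/-- sum of the digits number `k` -/
def sumDig (l : List ℕ) (k : ℕ) : ℕ := (l.map (fun m => dig m k)).sum

theorem sum_vecOf (l : List ℕ) (a : chevG2.Idx) :
    ((l.map vecOf).sum) a = ((sumDig l (enc a) : ℕ) : ZMod 3) := by
  induction l with
  | nil => simp [sumDig]
  | cons m l ih =>
    simp only [List.map_cons, List.sum_cons, Pi.add_apply, sumDig, Nat.cast_add] at ih ⊢
    rw [ih]
    rfl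

theorem fix_sum (M : Matrix chevG2.Idx chevG2.Idx (ZMod 3)) (l : List ℕ)
    (h : ∀ m ∈ l, M *ᵥ vecOf m = vecOf m) : M *ᵥ (l.map vecOf).sum = (l.map vecOf).sum := by
  induction l with
  | nil => simp
  | cons m l ih =>
    rw [List.map_cons, List.sum_cons, Matrix.mulVec_add, h m List.mem_cons_self,
      ih (fun b hb => h b (List.mem_cons_of_mem _ hb))]

/-- a matrix fixing vectors which span is the identity -/
theorem eq_one_of_fix (M : Matrix chevG2.Idx chevG2.Idx (ZMod 3)) (span : ℕ → List ℕ)
    (hs : ∀ j < 14, ∀ k < 14, sumDig (span j) k % 3 = if j = k then 1 else 0)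
    (h : ∀ j < 14, ∀ m ∈ span j, M *ᵥ vecOf m = vecOf m) : M = 1 := by
  have hs' : ∀ col : chevG2.Idx, ((span (enc col)).map vecOf).sum = Pi.single col 1 := by
    intro col
    funext a
    rw [sum_vecOf, ← ZMod.natCast_mod, hs _ (enc_lt col) _ (enc_lt a)]
    by_cases hc : a = col
    · subst hc
      simp
    · have : enc col ≠ enc a := fun e => hc (enc_injective e).symm
      simp [this, hc]
  ext row col
  have h1 := congrFun (fix_sum M _ (h (enc col) (enc_lt col))) row
  rw [hs', Matrix.mulVec_single_one] at h1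
  rw [Matrix.one_apply]
  simp only [Matrix.col_apply, Pi.single_apply] at h1
  exact h1

end Cfsg.Agent.Lib.Helper27.G2Vec
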