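import Cfsg.Agent.Lib.Helper27.G3PAct
import Cfsg.Agent.Lib.Helper27.ChevIso

/-!
# `G₂(3)` as a permutation group on 728 vectors (helper27)
-/

set_option autoImplicit false
set_option maxRecDepth 100000

namespace Cfsg.Agent.Lib.Helper27.G3P

open Cfsg.Agent.Lib.Helper28 Cfsg.Agent.Lib.Helper27.PC Cfsg.Agent.Lib.Helper27.G2Vec Cfsg.Lie Matrix

theorem orb_lt {i : ℕ} (hi : i < 728) : orb i < 3 ^ 14 := lt_of_blt (allBelow_iff.mp orb_lt_chk i hi)

theorem srt_mono : ∀ a b : ℕ, a < b → b < 728 → orb (srt a) < orb (srt b) := by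
  intro a b hab
  induction b, hab using Nat.le_induction with
  | base => intro hb; exact lt_of_blt (allBelow_iff.mp srt_chk a (by omega))
  | succ b hb ih =>
    intro hb'
    exact lt_trans (ih (by omega)) (lt_of_blt (allBelow_iff.mp srt_chk b (by omega)))

theorem orb_inj {i j : ℕ} (hi : i < 728) (hj : j < 728) (h : orb i = orb j) : i = j := by
  have hi' := allBelow_iff.mp pos_chk i hi
  have hj' := allBelow_iff.mp pos_chk j hj
  rw [Bool.and_eq_true] at hi' hj'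
  have a1 := lt_of_blt hi'.1
  have a2 := eq_of_nbeq hi'.2
  have b1 := lt_of_blt hj'.1
  have b2 := eq_of_nbeq hj'.2
  rw [← a2, ← b2] at h
  rcases lt_trichotomy (pos i) (pos j) with hl | he | hl
  · exact absurd h (ne_of_lt (srt_mono _ _ hl b1))
  · rw [← a2, ← b2, he]
  · exact absurd h.symm (ne_of_lt (srt_mono _ _ hl a1))

theorem vec_inj {i j : ℕ} (hi : i < 728) (hj : j < 728) (h : vec i = vec j) : i = j :=
  orb_inj hi hj (vecOf_inj (orb_lt hi) (orb_lt hj) h)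

theorem nth_mem_spanL {j : ℕ} (hj : j < 14) : nth spanL [] j ∈ spanL := by
  revert j
  decide +kernel

theorem eq_one_of_fix_vec (M : Matrix chevG2.Idx chevG2.Idx (ZMod 3))
    (h : ∀ i < 728, M *ᵥ vec i = vec i) : M = 1 := by
  apply eq_one_of_fix M span span_chk
  intro j hj m hm
  obtain ⟨i, hi, rfl⟩ := List.mem_map.mp hm
  exact h i (span_lt _ (nth_mem_spanL hj) i hi)

/-- the matrix acts on the orbit as the permutation -/
def Rel (M : Matrix chevG2.Idx chevG2.Idx (ZMod 3)) (σ : Equiv.Perm ℕ) : Prop :=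
  σ ∈ Sg (val V) Ltop ∧ ∀ i < 728, M *ᵥ vec i = vec (σ i)

theorem mem_lt {σ : Equiv.Perm ℕ} (h : σ ∈ Sg (val V) Ltop) {i : ℕ} (hi : i < 728) : σ i < 728 :=
  Bd_lt (Sg_le_Bd V Ltop h) hi

theorem Rel.unique {M : Matrix chevG2.Idx chevG2.Idx (ZMod 3)} {σ τ : Equiv.Perm ℕ}
    (h1 : Rel M σ) (h2 : Rel M τ) : σ = τ := by
  ext i
  by_cases hi : i < 728
  · exact vec_inj (mem_lt h1.1 hi) (mem_lt h2.1 hi) (by rw [← h1.2 i hi, ← h2.2 i hi])
  · rw [Sg_le_Bd V Ltop h1.1 i hi, Sg_le_Bd V Ltop h2.1 i hi]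

theorem Rel.mul {M N : Matrix chevG2.Idx chevG2.Idx (ZMod 3)} {σ τ : Equiv.Perm ℕ}
    (h1 : Rel M σ) (h2 : Rel N τ) : Rel (M * N) (σ * τ) :=
  ⟨Subgroup.mul_mem _ h1.1 h2.1, fun i hi => by
    rw [← Matrix.mulVec_mulVec, h2.2 i hi, h1.2 _ (mem_lt h2.1 hi)]
    rfl⟩

theorem Rel.one : Rel 1 1 := ⟨Subgroup.one_mem _, fun i _ => by rw [Matrix.one_mulVec]; rfl⟩

theorem Rel.inv {a : GL chevG2.Idx (ZMod 3)} {σ : Equiv.Perm ℕ}
    (h : Rel (a : Matrix chevG2.Idx chevG2.Idx (ZMod 3)) σ) :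
    Rel ((a⁻¹ : GL chevG2.Idx (ZMod 3)) : Matrix chevG2.Idx chevG2.Idx (ZMod 3)) σ⁻¹ := by
  refine ⟨Subgroup.inv_mem _ h.1, fun i hi => ?_⟩
  have hj : σ⁻¹ i < 728 := mem_lt (Subgroup.inv_mem _ h.1) hi
  have h1 := h.2 _ hj
  have e : σ (σ⁻¹ i) = i := by simp
  rw [e] at h1
  rw [← h1, Matrix.mulVec_mulVec, Units.inv_mul, Matrix.one_mulVec]

theorem zmod3_cases : ∀ t : ZMod 3, t = 0 ∨ t = 1 ∨ t = 2 := by decide

theorem rel_gen (r : Fin chevG2.nroots) (t : ZMod 3) : ∃ σ, Rel (chevG2.xMat (ZMod 3) r t) σ := by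
  obtain ⟨r, hr⟩ := r
  have hr' : r < 12 := hr
  rcases zmod3_cases t with rfl | rfl | rfl <;> interval_cases r
  · exact ⟨1, Subgroup.one_mem _, a0_0_act⟩
  · exact ⟨1, Subgroup.one_mem _, a1_0_act⟩
  · exact ⟨1, Subgroup.one_mem _, a2_0_act⟩
  · exact ⟨1, Subgroup.one_mem _, a3_0_act⟩
  · exact ⟨1, Subgroup.one_mem _, a4_0_act⟩
  · exact ⟨1, Subgroup.one_mem _, a5_0_act⟩
  · exact ⟨1, Subgroup.one_mem _, a6_0_act⟩
  · exact ⟨1, Subgroup.one_mem _, a7_0_act⟩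
  · exact ⟨1, Subgroup.one_mem _, a8_0_act⟩
  · exact ⟨1, Subgroup.one_mem _, a9_0_act⟩
  · exact ⟨1, Subgroup.one_mem _, a10_0_act⟩
  · exact ⟨1, Subgroup.one_mem _, a11_0_act⟩
  · exact ⟨LB.perm V 0, perm_mem_Sg V (by decide), a0_1_act⟩
  · exact ⟨LB.perm V 2, perm_mem_Sg V (by decide), a1_1_act⟩
  · exact ⟨LB.perm V 4, perm_mem_Sg V (by decide), a2_1_act⟩
  · exact ⟨LB.perm V 6, perm_mem_Sg V (by decide), a3_1_act⟩
  · exact ⟨LB.perm V 8, perm_mem_Sg V (by decide), a4_1_act⟩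
  · exact ⟨LB.perm V 10, perm_mem_Sg V (by decide), a5_1_act⟩
  · exact ⟨LB.perm V 12, perm_mem_Sg V (by decide), a6_1_act⟩
  · exact ⟨LB.perm V 14, perm_mem_Sg V (by decide), a7_1_act⟩
  · exact ⟨LB.perm V 16, perm_mem_Sg V (by decide), a8_1_act⟩
  · exact ⟨LB.perm V 18, perm_mem_Sg V (by decide), a9_1_act⟩
  · exact ⟨LB.perm V 20, perm_mem_Sg V (by decide), a10_1_act⟩
  · exact ⟨LB.perm V 22, perm_mem_Sg V (by decide), a11_1_act⟩
  · exact ⟨LB.perm V 1, perm_mem_Sg V (by decide), a0_2_act⟩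
  · exact ⟨LB.perm V 3, perm_mem_Sg V (by decide), a1_2_act⟩
  · exact ⟨LB.perm V 5, perm_mem_Sg V (by decide), a2_2_act⟩
  · exact ⟨LB.perm V 7, perm_mem_Sg V (by decide), a3_2_act⟩
  · exact ⟨LB.perm V 9, perm_mem_Sg V (by decide), a4_2_act⟩
  · exact ⟨LB.perm V 11, perm_mem_Sg V (by decide), a5_2_act⟩
  · exact ⟨LB.perm V 13, perm_mem_Sg V (by decide), a6_2_act⟩
  · exact ⟨LB.perm V 15, perm_mem_Sg V (by decide), a7_2_act⟩
  · exact ⟨LB.perm V 17, perm_mem_Sg V (by decide), a8_2_act⟩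
  · exact ⟨LB.perm V 19, perm_mem_Sg V (by decide), a9_2_act⟩
  · exact ⟨LB.perm V 21, perm_mem_Sg V (by decide), a10_2_act⟩
  · exact ⟨LB.perm V 23, perm_mem_Sg V (by decide), a11_2_act⟩

theorem rel_letter : ∀ x ∈ Ltop, ∃ (r : Fin chevG2.nroots) (t : ZMod 3),
    Rel (chevG2.xMat (ZMod 3) r t) (LB.perm V x) := by
  intro x hx
  simp only [Ltop, List.mem_cons, List.not_mem_nil, or_false] at hx
  rcases hx with rfl | rfl | rfl | rfl | rfl | rfl | rfl | rfl | rfl | rfl | rfl | rfl | rfl | rfl | rfl | rfl | rfl | rfl | rfl | rfl | rfl | rfl | rfl | rfl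
  · exact ⟨⟨0, by decide⟩, 1, perm_mem_Sg V (by decide), a0_1_act⟩
  · exact ⟨⟨0, by decide⟩, 2, perm_mem_Sg V (by decide), a0_2_act⟩
  · exact ⟨⟨1, by decide⟩, 1, perm_mem_Sg V (by decide), a1_1_act⟩
  · exact ⟨⟨1, by decide⟩, 2, perm_mem_Sg V (by decide), a1_2_act⟩
  · exact ⟨⟨2, by decide⟩, 1, perm_mem_Sg V (by decide), a2_1_act⟩
  · exact ⟨⟨2, by decide⟩, 2, perm_mem_Sg V (by decide), a2_2_act⟩
  · exact ⟨⟨3, by decide⟩, 1, perm_mem_Sg V (by decide), a3_1_act⟩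
  · exact ⟨⟨3, by decide⟩, 2, perm_mem_Sg V (by decide), a3_2_act⟩
  · exact ⟨⟨4, by decide⟩, 1, perm_mem_Sg V (by decide), a4_1_act⟩
  · exact ⟨⟨4, by decide⟩, 2, perm_mem_Sg V (by decide), a4_2_act⟩
  · exact ⟨⟨5, by decide⟩, 1, perm_mem_Sg V (by decide), a5_1_act⟩
  · exact ⟨⟨5, by decide⟩, 2, perm_mem_Sg V (by decide), a5_2_act⟩
  · exact ⟨⟨6, by decide⟩, 1, perm_mem_Sg V (by decide), a6_1_act⟩
  · exact ⟨⟨6, by decide⟩, 2, perm_mem_Sg V (by decide), a6_2_act⟩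
  · exact ⟨⟨7, by decide⟩, 1, perm_mem_Sg V (by decide), a7_1_act⟩
  · exact ⟨⟨7, by decide⟩, 2, perm_mem_Sg V (by decide), a7_2_act⟩
  · exact ⟨⟨8, by decide⟩, 1, perm_mem_Sg V (by decide), a8_1_act⟩
  · exact ⟨⟨8, by decide⟩, 2, perm_mem_Sg V (by decide), a8_2_act⟩
  · exact ⟨⟨9, by decide⟩, 1, perm_mem_Sg V (by decide), a9_1_act⟩
  · exact ⟨⟨9, by decide⟩, 2, perm_mem_Sg V (by decide), a9_2_act⟩
  · exact ⟨⟨10, by decide⟩, 1, perm_mem_Sg V (by decide), a10_1_act⟩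
  · exact ⟨⟨10, by decide⟩, 2, perm_mem_Sg V (by decide), a10_2_act⟩
  · exact ⟨⟨11, by decide⟩, 1, perm_mem_Sg V (by decide), a11_1_act⟩
  · exact ⟨⟨11, by decide⟩, 2, perm_mem_Sg V (by decide), a11_2_act⟩

theorem exists_rel : ∀ g ∈ chevG2.group (ZMod 3),
    ∃ σ, Rel (g : Matrix chevG2.Idx chevG2.Idx (ZMod 3)) σ := by
  intro g hg
  unfold ChevalleyDatum.group at hg
  induction hg using Subgroup.closure_induction with
  | mem g hg =>
    obtain ⟨r, t, e⟩ := hg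
    rw [e]
    exact rel_gen r t
  | one => exact ⟨1, by rw [Units.val_one]; exact Rel.one⟩
  | mul a b _ _ iha ihb =>
    obtain ⟨σ, hσ⟩ := iha
    obtain ⟨τ, hτ⟩ := ihb
    exact ⟨σ * τ, by rw [Units.val_mul]; exact hσ.mul hτ⟩
  | inv a _ ih =>
    obtain ⟨σ, hσ⟩ := ih
    exact ⟨σ⁻¹, hσ.inv⟩

/-- the permutation representation -/
noncomputable def rho : chevG2.group (ZMod 3) →* Equiv.Perm ℕ :=
  MonoidHom.mk' (fun g => Classical.choose (exists_rel g.1 g.2)) (by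
    intro a b
    refine Rel.unique (Classical.choose_spec (exists_rel (a * b).1 (a * b).2)) ?_
    have := (Classical.choose_spec (exists_rel a.1 a.2)).mul (Classical.choose_spec (exists_rel b.1 b.2))
    rw [← Units.val_mul] at this
    exact this)

theorem rho_rel (g : chevG2.group (ZMod 3)) :
    Rel ((g : GL chevG2.Idx (ZMod 3)) : Matrix chevG2.Idx chevG2.Idx (ZMod 3)) (rho g) :=
  Classical.choose_spec (exists_rel g.1 g.2)

theorem rho_inj : Function.Injective rho := by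
  rw [injective_iff_map_eq_one]
  intro g hg
  have h := rho_rel g
  rw [hg] at h
  have : ((g : GL chevG2.Idx (ZMod 3)) : Matrix chevG2.Idx chevG2.Idx (ZMod 3)) = 1 :=
    eq_one_of_fix_vec _ (fun i hi => h.2 i hi)
  exact Subtype.ext (Units.ext this)

theorem letter_unit : ∀ x ∈ Ltop, ∃ g : chevG2.group (ZMod 3),
    Rel ((g : GL chevG2.Idx (ZMod 3)) : Matrix chevG2.Idx chevG2.Idx (ZMod 3)) (LB.perm V x) := by
  intro x hx
  have hxK : x < L.K := (by decide +kernel : ∀ x ∈ Ltop, x < L.K) x hx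
  have hix : L.inv x ∈ Ltop := (by decide +kernel : ∀ x ∈ Ltop, L.inv x ∈ Ltop) x hx
  obtain ⟨r, t, hr⟩ := rel_letter x hx
  obtain ⟨r', t', hr'⟩ := rel_letter _ hix
  rw [LB.perm_inv V hxK] at hr'
  have h1 : chevG2.xMat (ZMod 3) r t * chevG2.xMat (ZMod 3) r' t' = 1 := by
    have := hr.mul hr'
    rw [mul_inv_cancel] at this
    exact eq_one_of_fix_vec _ (fun i hi => this.2 i hi)
  have h2 : chevG2.xMat (ZMod 3) r' t' * chevG2.xMat (ZMod 3) r t = 1 := by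
    have := hr'.mul hr
    rw [inv_mul_cancel] at this
    exact eq_one_of_fix_vec _ (fun i hi => this.2 i hi)
  refine ⟨⟨⟨chevG2.xMat (ZMod 3) r t, chevG2.xMat (ZMod 3) r' t', h1, h2⟩, ?_⟩, hr⟩
  exact Subgroup.subset_closure ⟨r, t, rfl⟩

theorem rho_range : rho.range = Sg (val V) LP := by
  rw [P_eq_top]
  apply le_antisymm
  · rintro _ ⟨g, rfl⟩
    exact (rho_rel g).1
  · unfold Sg
    rw [Subgroup.closure_le]
    rintro _ ⟨y, hy, rfl⟩
    apply Subgroup.inv_mem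
    obtain ⟨g, hg⟩ := letter_unit y hy
    exact ⟨g, Rel.unique (rho_rel g) hg⟩

/-- `G₂(3)` is isomorphic to the permutation group -/
noncomputable def iso : chevG2.group (ZMod 3) ≃* Sg (val V) LP :=
  (MonoidHom.ofInjective rho_inj).trans (MulEquiv.subgroupCongr rho_range)

/-- the facts on the permutation group -/
theorem factsP : Finite (Sg (val V) LP) ∧ Nat.card (Sg (val V) LP) = 4245696 ∧
    (∀ g : Sg (val V) LP, 7 ∣ orderOf g → orderOf g = 7) ∧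
    (∀ g : Sg (val V) LP, 13 ∣ orderOf g → orderOf g = 13) ∧ ∃ g : Sg (val V) LP, orderOf g = 6 := by
  haveI : Finite (Sg (val V) LP) := lvl0.1
  refine ⟨lvl0.1, cardP, ?_, ?_, ⟨⟨_, w6_mem⟩, ?_⟩⟩
  · apply orderOf_eq_prime_of_dvd 7 (by norm_num) (by rw [cardP]; norm_num) (by rw [cardP]; norm_num)
      ⟨_, wx_mem⟩ (by rw [← Subgroup.orderOf_coe]; exact orderX)
    intro g hg
    rw [← Subgroup.orderOf_coe]
    have hc : (g : Equiv.Perm ℕ) * LB.elt V wx = LB.elt V wx * g := congrArg Subtype.val hg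
    exact order_le_of_image _ _ 0 orbX centX fixX g.1 g.2 hc
      (by rw [Subgroup.orderOf_coe]; exact (orderOf_pos g).ne')
  · apply orderOf_eq_prime_of_dvd 13 (by norm_num) (by rw [cardP]; norm_num) (by rw [cardP]; norm_num)
      ⟨_, wy_mem⟩ (by rw [← Subgroup.orderOf_coe]; exact orderY)
    intro g hg
    rw [← Subgroup.orderOf_coe]
    have hc : (g : Equiv.Perm ℕ) * LB.elt V wy = LB.elt V wy * g := congrArg Subtype.val hg
    exact order_le_of_image _ _ 0 orbY centY fixY g.1 g.2 hc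
      (by rw [Subgroup.orderOf_coe]; exact (orderOf_pos g).ne')
  · rw [← Subgroup.orderOf_coe]
    exact order6

/-- transport of the facts along an isomorphism -/
theorem facts_transfer {X : Type*} [Group X] {G : Subgroup X} {Γ : Type*} [Group Γ] {A : Subgroup Γ} (f : G ≃* A)
    (N : ℕ)
    (h : Finite A ∧ Nat.card A = N ∧ (∀ g : A, 7 ∣ orderOf g → orderOf g = 7) ∧
      (∀ g : A, 13 ∣ orderOf g → orderOf g = 13) ∧ ∃ g : A, orderOf g = 6) :
    Finite G ∧ Nat.card G = N ∧ (∀ g : G, 7 ∣ orderOf g → orderOf g = 7) ∧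
      (∀ g : G, 13 ∣ orderOf g → orderOf g = 13) ∧ ∃ g : G, orderOf g = 6 := by
  obtain ⟨h1, h2, h3, h4, g, hg⟩ := h
  refine ⟨Finite.of_equiv _ f.symm.toEquiv, by rw [Nat.card_congr f.toEquiv, h2], ?_, ?_, f.symm g, ?_⟩
  · intro x hx
    rw [← f.orderOf_eq] at hx ⊢
    exact h3 _ hx
  · intro x hx
    rw [← f.orderOf_eq] at hx ⊢
    exact h4 _ hx
  · rw [f.symm.orderOf_eq, hg]

theorem facts (F : Type*) [Field F] [Fintype F] (hF : Fintype.card F = 3) :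
    Finite (chevG2.group F) ∧ Nat.card (chevG2.group F) = 4245696 ∧
    (∀ g : chevG2.group F, 7 ∣ orderOf g → orderOf g = 7) ∧
    (∀ g : chevG2.group F, 13 ∣ orderOf g → orderOf g = 13) ∧ ∃ g : chevG2.group F, orderOf g = 6 := by
  haveI : Fact (Nat.Prime 3) := ⟨by norm_num⟩
  have e : ZMod 3 ≃+* F := ZMod.ringEquivOfPrime F (by norm_num) hF
  exact facts_transfer ((ChevIso.groupIso chevG2 e.symm).trans iso) _ factsP

end Cfsg.Agent.Lib.Helper27.G3P
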