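import Cfsg.Agent.Lib.Helper27.G3PData

set_option autoImplicit false
set_option maxRecDepth 100000

namespace Cfsg.Agent.Lib.Helper27.G3PLk2

open Cfsg.Agent.Lib.Helper28 Cfsg.Agent.Lib.Helper27.PC

noncomputable def tabC0 : Tr := .leaf 0xbc5970e91a9206647189185e45169105654090401c0c0500446420
noncomputable def auxC0 : Tr := .leaf 0xb5d6ef684a11d2446481151c444610d14400000000000000104400
noncomputable def tabC1 : Tr := .leaf 0xb4626ed4348c8d030338b8cc2c328a8c835098441e0d05808c2230
noncomputable def auxC1 : Tr := .leaf 0xa9dcec73341c4ce6f331b4ca6b321a4c66000000000000004c0600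
noncomputable def tabC2 : Tr := .leaf 0xab34628e581bcee8a3612cb0123a14cac0314b084e8112a200c040
noncomputable def auxC2 : Tr := .leaf 0xa531e14d77aba6d4975aaa401179aca400274285cca07228000000
noncomputable def tabC3 : Tr := .leaf 0x70c95438761acda565a24d2a97081bce248718994424508a40e050
noncomputable def auxC3 : Tr := .leaf 0x6b4592d765b29991569b49a90007b39a1076131582c36030000000
noncomputable def tabC4 : Tr := .leaf 0
noncomputable def auxC4 : Tr := .leaf 0
noncomputable def dC : Tr := .leaf 0x684c0d21201400704e0181300504a01012003046008310410c2100300400400000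
noncomputable def tabCols : List Tr := [tabC0, tabC1, tabC2, tabC3, tabC4]
noncomputable def auxCols : List Tr := [auxC0, auxC1, auxC2, auxC3, auxC4]
def pairsC : List ((List ℕ × ℕ × List ℕ) × ℕ) := [
  (([0, 0], 0, []), 2),
  (([0], 1, []), 3072),
  (([1], 0, []), 4096),
  (([1, 2, 0, 3, 0], 2, []), 2058),
  (([2], 3, []), 5120),
  (([3], 2, []), 6144),
  (([0, 2, 1, 2, 0], 3, []), 2054),
  (([0, 3, 0, 2, 1], 2, []), 2050),
  (([2, 2], 2, []), 1026),
  (([2, 1, 2, 0, 3], 0, []), 2056)]
def subL : List ℕ := []
noncomputable def D : UB where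
  tab := field tabCols 6 63 9 511
  aux := field auxCols 6 63 9 511
  dinfo := field [dC] 6 63 11 2047 0
  rb := 4
  RM := 15
  pb := 4
  PM := 15
  m := 24
  K := 4
  Kall := 5
  pairs := pairsC.map Prod.fst
  isSub := fun x => subL.contains x
  fuel := 4
def ren : ℕ → ℕ
  | 0 => 36
  | 1 => 37
  | 2 => 38
  | 3 => 39
  | x => 0
def linv : ℕ → ℕ
  | 0 => 1
  | 1 => 0
  | 2 => 3
  | 3 => 2
  | x => x
def relsL : List (List ℕ) := [
  [0, 0, 0],
  [2, 2, 2],
  [2, 0, 3, 0, 2, 1]]
noncomputable def Lk : Link where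
  D := D
  ren := ren
  inv := linv
  rels := relsL
  pairsC := pairsC
  subL := subL
  n := 24
theorem chk_0 : allRange D.checkLabel 0 24 = true := by decide +kernel
theorem check_all : ∀ c < D.m, D.checkLabel c = true := by
  intro c hc
  have hc' : c < 24 := hc
  by_cases h0 : c < 24
  · exact allRange_iff.mp chk_0 c (by omega) (by omega)
  omega
theorem pairs_ok : pairsC.all (pairOK (relsAll relsL linv 5) linv 4 5) = true := by decide +kernel
theorem relsK_ok : ∀ r ∈ relsAll relsL linv 5, ∀ y ∈ r, y < 5 := by decide +kernel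
theorem fin_all : allBelow D.finalLabel 24 = true := by decide +kernel
theorem live_count : D.liveCount = 24 := by decide +kernel
theorem h0_ok : D.tg D.K 0 = 0 := by decide +kernel
theorem ok : Lk.OK Cfsg.Agent.Lib.Helper27.G3P.W Cfsg.Agent.Lib.Helper27.G3P.L.inv Cfsg.Agent.Lib.Helper27.G3P.L.K [36, 37, 38, 39] [] where
  Kall := rfl
  invK := by decide +kernel
  invE := rfl
  relsIn := by decide +kernel
  Dpairs := rfl
  pairs := pairs_ok
  relsK := relsK_ok
  isSub := by
    intro x hx
    have hx' : subL.contains x = true := hx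
    show x ∈ subL
    simpa using hx'
  sub := by decide +kernel
  check := check_all
  gens := by decide +kernel
  hm := by decide
  h0 := h0_ok
  fin := allBelow_iff.mp fin_all
  count := live_count

end Cfsg.Agent.Lib.Helper27.G3PLk2
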