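import Cfsg.Agent.Lib.Helper27.PCEnum

/-!
# Centralisers of elements whose orbit contains a base (helper27)
-/

set_option autoImplicit false

namespace Cfsg.Agent.Lib.Helper27.PC

open Cfsg.Agent.Lib.Helper28

variable {L : LB} (V : L.Valid)

/-- the inverse word -/
def winv (L : LB) (u : List ℕ) : List ℕ := (u.map L.inv).reverse

include V in
theorem winv_K (u : List ℕ) (hu : ∀ y ∈ u, y < L.K) : ∀ y ∈ winv L u, y < L.K := by
  intro y hy
  unfold winv at hy
  rw [List.mem_reverse, List.mem_map] at hy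
  obtain ⟨x, hx, rfl⟩ := hy
  exact (V.invK x (hu x hx)).1

theorem elt_single (x : ℕ) : LB.elt V [x] = LB.perm V x := by
  unfold LB.elt
  simp

theorem elt_winv (u : List ℕ) (hu : ∀ y ∈ u, y < L.K) : LB.elt V (winv L u) = (LB.elt V u)⁻¹ := by
  induction u with
  | nil => simp [winv, elt_nil]
  | cons x u ih =>
    have e1 : winv L (x :: u) = winv L u ++ [L.inv x] := by simp [winv]
    have e2 : x :: u = [x] ++ u := rfl
    rw [e1, elt_append, ih (fun y hy => hu y (List.mem_cons_of_mem _ hy)), e2, elt_append, elt_single,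
      elt_single, LB.perm_inv V (hu x List.mem_cons_self), mul_inv_rev]

include V in
theorem traceN_winv (u : List ℕ) (hu : ∀ y ∈ u, y < L.K) {a b : ℕ} (h : L.traceN u a = b) :
    L.traceN (winv L u) b = a := by
  rw [← LB.elt_apply V _ (winv_K V u hu), elt_winv V u hu, Equiv.Perm.inv_eq_iff_eq, LB.elt_apply V u hu, h]

/-- the check: no element with `b₁ ↦ c` outside the list commutes with the word `ww` -/
noncomputable def centChk (L : LB) (b3 : ℕ) (pr1 pr2 pr3 : List (ℕ × List ℕ)) (ww : List ℕ)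
    (orbL : List ℕ) : Bool :=
  force (L.traceN ww b3) (fun b4 =>
  allList (fun p1 => orbL.contains p1.1 ||
    force (L.traceN ww p1.1) (fun c' =>
    force (L.traceN ww c') (fun c'' =>
    force (L.traceN ww c'') (fun c''' =>
    force (L.traceN (winv L p1.2) c') (fun d =>
    force (L.traceN (winv L p1.2) c'') (fun d' =>
    allList (fun p2 => (!(Nat.beq p2.1 d)) ||
      force (L.traceN (winv L p2.2) d') (fun d3 =>
      allList (fun p3 => (!(Nat.beq p3.1 d3)) ||
        (!(Nat.beq (L.traceN p1.2 (L.traceN p2.2 (L.traceN p3.2 b4))) c'''))) pr3)) pr2)))))) pr1)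

theorem cent_image (Λ0 Λ1 Λ2 : List ℕ) (b1 b2 b3 : ℕ) (pr1 pr2 pr3 : List (ℕ × List ℕ))
    (e1 : ∀ g ∈ Sg (val V) Λ0, ∃ p ∈ pr1, ∃ h ∈ Sg (val V) Λ1, g = LB.elt V p.2 * h)
    (e2 : ∀ g ∈ Sg (val V) Λ1, ∃ p ∈ pr2, ∃ h ∈ Sg (val V) Λ2, g = LB.elt V p.2 * h)
    (e3 : ∀ g ∈ Sg (val V) Λ2, ∃ p ∈ pr3, ∃ h ∈ Sg (val V) [], g = LB.elt V p.2 * h)
    (f1 : ∀ g ∈ Sg (val V) Λ1, g b1 = b1) (f2 : ∀ g ∈ Sg (val V) Λ2, g b2 = b2)
    (k1 : ∀ p ∈ pr1, (∀ y ∈ p.2, y < L.K) ∧ L.traceN p.2 b1 = p.1)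
    (k2 : ∀ p ∈ pr2, (∀ y ∈ p.2, y < L.K) ∧ L.traceN p.2 b2 = p.1)
    (k3 : ∀ p ∈ pr3, (∀ y ∈ p.2, y < L.K) ∧ L.traceN p.2 b3 = p.1)
    (ww : List ℕ) (hww : ∀ y ∈ ww, y < L.K) (hb2 : L.traceN ww b1 = b2) (hb3 : L.traceN ww b2 = b3)
    (orbL : List ℕ) (chk : centChk L b3 pr1 pr2 pr3 ww orbL = true) :
    ∀ g ∈ Sg (val V) Λ0, g * LB.elt V ww = LB.elt V ww * g → g b1 ∈ orbL := by
  intro g hg hcom
  obtain ⟨p1, hp1, h1, hh1, rfl⟩ := e1 g hg
  obtain ⟨p2, hp2, h2, hh2, rfl⟩ := e2 h1 hh1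
  obtain ⟨p3, hp3, h3, hh3, rfl⟩ := e3 h2 hh2
  rw [Sg_nil] at hh3
  have h31 := Subgroup.mem_bot.mp hh3
  subst h31
  rw [mul_one] at *
  obtain ⟨K1, E1⟩ := k1 p1 hp1
  obtain ⟨K2, E2⟩ := k2 p2 hp2
  obtain ⟨K3, E3⟩ := k3 p3 hp3
  have com : ∀ x, (LB.elt V p1.2 * (LB.elt V p2.2 * LB.elt V p3.2)) (L.traceN ww x) =
      L.traceN ww ((LB.elt V p1.2 * (LB.elt V p2.2 * LB.elt V p3.2)) x) := by
    intro x
    have := congrArg (fun f => f x) hcom
    simp only [Equiv.Perm.mul_apply] at this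
    simp only [Equiv.Perm.mul_apply]
    rw [LB.elt_apply V ww hww, LB.elt_apply V ww hww] at this
    exact this
  have ap : ∀ x, (LB.elt V p1.2 * (LB.elt V p2.2 * LB.elt V p3.2)) x =
      L.traceN p1.2 (L.traceN p2.2 (L.traceN p3.2 x)) := by
    intro x
    simp only [Equiv.Perm.mul_apply]
    rw [LB.elt_apply V _ K3, LB.elt_apply V _ K2, LB.elt_apply V _ K1]
  -- images of the base points
  have g1 : (LB.elt V p1.2 * (LB.elt V p2.2 * LB.elt V p3.2)) b1 = p1.1 := by
    rw [Equiv.Perm.mul_apply, f1 _ hh1, LB.elt_apply V _ K1, E1]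
  have g2 : L.traceN p1.2 p2.1 = L.traceN ww p1.1 := by
    have := com b1
    rw [hb2, g1, Equiv.Perm.mul_apply, Equiv.Perm.mul_apply, f2 _ hh2, LB.elt_apply V _ K2, E2,
      LB.elt_apply V _ K1] at this
    exact this
  have g3 : L.traceN p1.2 (L.traceN p2.2 p3.1) = L.traceN ww (L.traceN ww p1.1) := by
    have := com b2
    rw [hb3, ap b3, E3, ap b2] at this
    have e : L.traceN p3.2 b2 = b2 := by rw [← LB.elt_apply V _ K3]; exact f2 _ hh2
    rw [e, E2, g2] at this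
    exact this
  have g4 : L.traceN p1.2 (L.traceN p2.2 (L.traceN p3.2 (L.traceN ww b3))) =
      L.traceN ww (L.traceN ww (L.traceN ww p1.1)) := by
    have := com b3
    rw [ap, ap b3, E3, g3] at this
    exact this
  rw [g1]
  unfold centChk at chk
  simp only [force_eq] at chk
  have c1 := allList_iff.mp chk p1 hp1
  rw [Bool.or_eq_true] at c1
  rcases c1 with c1 | c1
  · simpa using c1
  exfalso
  have c2 := allList_iff.mp c1 p2 hp2
  rw [traceN_winv V _ K1 g2] at c2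
  have hb : Nat.beq p2.1 p2.1 = true := Nat.beq_refl _
  rw [hb] at c2
  simp only [Bool.not_true, Bool.false_or] at c2
  have c3 := allList_iff.mp c2 p3 hp3
  rw [traceN_winv V _ K1 g3, traceN_winv V _ K2 rfl] at c3
  have hb' : Nat.beq p3.1 p3.1 = true := Nat.beq_refl _
  rw [hb', g4] at c3
  have hb'' : Nat.beq (L.traceN ww (L.traceN ww (L.traceN ww p1.1)))
      (L.traceN ww (L.traceN ww (L.traceN ww p1.1))) = true := Nat.beq_refl _
  rw [hb''] at c3
  exact absurd c3 (by decide)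

/-- bound for the orders of the elements of a semiregular set of commuting elements -/
theorem order_le_of_image (A : Subgroup (Equiv.Perm ℕ)) (w : Equiv.Perm ℕ) (b1 : ℕ) (orbL : List ℕ)
    (h1 : ∀ g ∈ A, g * w = w * g → g b1 ∈ orbL) (h2 : ∀ g ∈ A, g * w = w * g → g b1 = b1 → g = 1) :
    ∀ g ∈ A, g * w = w * g → orderOf g ≠ 0 → orderOf g ≤ orbL.length := by
  intro g hg hc h0
  have hpow : ∀ k : ℕ, g ^ k ∈ A ∧ g ^ k * w = w * g ^ k := by
    intro k
    refine ⟨A.pow_mem hg k, ?_⟩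
    have : Commute g w := hc
    exact (this.pow_left k)
  have hinj : Set.InjOn (fun k : ℕ => (g ^ k) b1) (Finset.range (orderOf g) : Set ℕ) := by
    have key : ∀ i j : ℕ, i < j → j < orderOf g → (g ^ i) b1 = (g ^ j) b1 → False := by
      intro i j hij hj e
      have e1 : g ^ j = g ^ i * g ^ (j - i) := by rw [← pow_add]; congr 1; omega
      rw [e1, Equiv.Perm.mul_apply] at e
      have e2 := (g ^ i).injective e
      have e3 := h2 _ (hpow (j - i)).1 (hpow (j - i)).2 e2.symm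
      have e4 := orderOf_dvd_of_pow_eq_one e3
      have := Nat.le_of_dvd (by omega) e4
      omega
    intro i hi j hj e
    have hi' := Finset.mem_range.mp hi
    have hj' := Finset.mem_range.mp hj
    rcases lt_trichotomy i j with h | h | h
    · exact (key i j h hj' e).elim
    · exact h
    · exact (key j i h hi' e.symm).elim
  have hmaps : ∀ k ∈ Finset.range (orderOf g), (fun k : ℕ => (g ^ k) b1) k ∈ orbL.toFinset := by
    intro k _
    exact List.mem_toFinset.mpr (h1 _ (hpow k).1 (hpow k).2)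
  have := Finset.card_le_card_of_injOn _ hmaps hinj
  rw [Finset.card_range] at this
  exact le_trans this (List.toFinset_card_le _)

/-- elements of order divisible by a prime `p` with a Sylow subgroup of order `p` which is self-centralising -/
theorem orderOf_eq_prime_of_dvd {G : Type*} [Group G] [Finite G] (p : ℕ) (hp : p.Prime)
    (hp1 : p ∣ Nat.card G) (hp2 : ¬ p ^ 2 ∣ Nat.card G) (w : G) (hw : orderOf w = p)
    (hC : ∀ g : G, g * w = w * g → orderOf g ≤ p) : ∀ g : G, p ∣ orderOf g → orderOf g = p := by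
  intro g hg
  haveI : Fact p.Prime := ⟨hp⟩
  obtain ⟨k, hk⟩ := hg
  have hfac : (Nat.card G).factorization p = 1 := by
    have hne : Nat.card G ≠ 0 := Nat.card_pos.ne'
    have h1 : 1 ≤ (Nat.card G).factorization p := (hp.dvd_iff_one_le_factorization hne).mp hp1
    have h2 : ¬ 2 ≤ (Nat.card G).factorization p := by
      intro h
      exact hp2 ((hp.pow_dvd_iff_le_factorization hne).mpr h)
    omega
  have hkpos : 0 < k := by
    rcases Nat.eq_zero_or_pos k with h | h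
    · rw [h, mul_zero] at hk
      exact absurd hk (orderOf_pos g).ne'
    · exact h
  have hx : orderOf (g ^ k) = p := by
    rw [orderOf_pow' g hkpos.ne', hk, Nat.gcd_eq_right (Dvd.intro_left p rfl), Nat.mul_div_cancel _ hkpos]
  let P : Sylow p G := Sylow.ofCard (Subgroup.zpowers (g ^ k)) (by rw [Nat.card_zpowers, hx, hfac, pow_one])
  let Q : Sylow p G := Sylow.ofCard (Subgroup.zpowers w) (by rw [Nat.card_zpowers, hw, hfac, pow_one])
  obtain ⟨h, hh⟩ := MulAction.exists_smul_eq G Q P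
  -- `w` conjugated by `h` lies in `⟨g ^ k⟩`
  have hmem : h * w * h⁻¹ ∈ Subgroup.zpowers (g ^ k) := by
    have h1 : h * w * h⁻¹ ∈ ((h • Q : Sylow p G) : Subgroup G) := by
      rw [Sylow.coe_subgroup_smul]
      exact Subgroup.smul_mem_pointwise_smul w (MulAut.conj h) _ (Subgroup.mem_zpowers w)
    rw [hh] at h1
    exact h1
  obtain ⟨m, hm⟩ := Subgroup.mem_zpowers_iff.mp hmem
  have hcomm : (h⁻¹ * g * h) * w = w * (h⁻¹ * g * h) := by
    have c1 : Commute g (h * w * h⁻¹) := by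
      rw [← hm]
      exact ((Commute.refl g).pow_right k).zpow_right m
    have c2 : g * (h * w * h⁻¹) = (h * w * h⁻¹) * g := c1
    calc h⁻¹ * g * h * w = h⁻¹ * (g * (h * w * h⁻¹)) * h := by group
      _ = h⁻¹ * ((h * w * h⁻¹) * g) * h := by rw [c2]
      _ = w * (h⁻¹ * g * h) := by group
  have hle := hC _ hcomm
  have hord : orderOf (h⁻¹ * g * h) = orderOf g := by
    have := orderOf_injective (MulAut.conj h⁻¹).toMonoidHom (MulAut.conj h⁻¹).injective g
    simpa [MulAut.conj_apply] using this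
  rw [hord, hk] at hle
  have : k = 1 := by
    by_contra hne
    have : 2 ≤ k := by omega
    have h3 : p * 2 ≤ p * k := Nat.mul_le_mul_left _ this
    have := hp.pos
    omega
  rw [hk, this, mul_one]

/-- an element commuting with a word moving the base along itself and fixing the first base point is trivial -/
theorem cent_fix (Λ0 Λ1 Λ2 : List ℕ) (b1 b2 b3 : ℕ)
    (s0 : ∀ g ∈ Sg (val V) Λ0, g b1 = b1 → g ∈ Sg (val V) Λ1)
    (s1 : ∀ g ∈ Sg (val V) Λ1, g b2 = b2 → g ∈ Sg (val V) Λ2)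
    (s2 : ∀ g ∈ Sg (val V) Λ2, g b3 = b3 → g ∈ Sg (val V) [])
    (ww : List ℕ) (hww : ∀ y ∈ ww, y < L.K) (hb2 : L.traceN ww b1 = b2) (hb3 : L.traceN ww b2 = b3) :
    ∀ g ∈ Sg (val V) Λ0, g * LB.elt V ww = LB.elt V ww * g → g b1 = b1 → g = 1 := by
  intro g hg hcom h1
  have com : ∀ x, g (L.traceN ww x) = L.traceN ww (g x) := by
    intro x
    have := congrArg (fun f => f x) hcom
    simp only [Equiv.Perm.mul_apply] at this
    rw [LB.elt_apply V ww hww, LB.elt_apply V ww hww] at this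
    exact this
  have h2 : g b2 = b2 := by rw [← hb2, com, h1]
  have h3 : g b3 = b3 := by rw [← hb3, com, h2]
  have := s2 g (s1 g (s0 g hg h1) h2) h3
  rw [Sg_nil] at this
  exact Subgroup.mem_bot.mp this

theorem elt_pow_apply (w : List ℕ) (hw : ∀ y ∈ w, y < L.K) (k : ℕ) (b : ℕ) :
    (LB.elt V w ^ k) b = (L.traceN w)^[k] b := by
  induction k generalizing b with
  | zero => rfl
  | succ k ih => rw [pow_succ, Equiv.Perm.mul_apply, LB.elt_apply V w hw, ih, Function.iterate_succ_apply]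

theorem pow_eq_one_of_base (A : Subgroup (Equiv.Perm ℕ)) (b1 b2 b3 : ℕ)
    (hbase : ∀ g ∈ A, g b1 = b1 → g b2 = b2 → g b3 = b3 → g = 1)
    (w : List ℕ) (hw : ∀ y ∈ w, y < L.K) (hmem : LB.elt V w ∈ A) (k : ℕ)
    (h1 : (L.traceN w)^[k] b1 = b1) (h2 : (L.traceN w)^[k] b2 = b2) (h3 : (L.traceN w)^[k] b3 = b3) :
    LB.elt V w ^ k = 1 :=
  hbase _ (A.pow_mem hmem k) (by rw [elt_pow_apply V w hw, h1]) (by rw [elt_pow_apply V w hw, h2])
    (by rw [elt_pow_apply V w hw, h3])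

theorem pow_ne_one_of_point (w : List ℕ) (hw : ∀ y ∈ w, y < L.K) (k : ℕ) (c : ℕ)
    (h : (L.traceN w)^[k] c ≠ c) : LB.elt V w ^ k ≠ 1 := by
  intro e
  apply h
  rw [← elt_pow_apply V w hw, e]
  rfl

theorem order_prime_of_base (A : Subgroup (Equiv.Perm ℕ)) (b1 b2 b3 : ℕ)
    (hbase : ∀ g ∈ A, g b1 = b1 → g b2 = b2 → g b3 = b3 → g = 1)
    (w : List ℕ) (hw : ∀ y ∈ w, y < L.K) (hmem : LB.elt V w ∈ A) (p : ℕ) (hp : p.Prime)
    (h1 : (L.traceN w)^[p] b1 = b1) (h2 : (L.traceN w)^[p] b2 = b2) (h3 : (L.traceN w)^[p] b3 = b3)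
    (hne : (L.traceN w)^[1] b1 ≠ b1) : orderOf (LB.elt V w) = p := by
  haveI : Fact p.Prime := ⟨hp⟩
  apply orderOf_eq_prime (pow_eq_one_of_base V A b1 b2 b3 hbase w hw hmem p h1 h2 h3)
  have := pow_ne_one_of_point V w hw 1 b1 hne
  rwa [pow_one] at this

theorem order_six_of_base (A : Subgroup (Equiv.Perm ℕ)) (b1 b2 b3 : ℕ)
    (hbase : ∀ g ∈ A, g b1 = b1 → g b2 = b2 → g b3 = b3 → g = 1)
    (w : List ℕ) (hw : ∀ y ∈ w, y < L.K) (hmem : LB.elt V w ∈ A)
    (h1 : (L.traceN w)^[6] b1 = b1) (h2 : (L.traceN w)^[6] b2 = b2) (h3 : (L.traceN w)^[6] b3 = b3)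
    (c2 : ℕ) (hc2 : (L.traceN w)^[2] c2 ≠ c2) (c3 : ℕ) (hc3 : (L.traceN w)^[3] c3 ≠ c3) :
    orderOf (LB.elt V w) = 6 := by
  apply orderOf_eq_of_pow_and_pow_div_prime (by norm_num)
    (pow_eq_one_of_base V A b1 b2 b3 hbase w hw hmem 6 h1 h2 h3)
  intro p hp hd
  have hle : p ≤ 6 := Nat.le_of_dvd (by norm_num) hd
  interval_cases p
  · exact absurd hp (by norm_num)
  · exact absurd hp (by norm_num)
  · exact pow_ne_one_of_point V w hw 3 c3 hc3
  · exact pow_ne_one_of_point V w hw 2 c2 hc2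
  · exact absurd hd (by norm_num)
  · exact absurd hd (by norm_num)
  · exact absurd hp (by norm_num)

/-- the statement on the element orders in a group whose Sylow subgroups for `7` and `13` are self-centralising
of prime order -/
theorem order_char {G : Type*} [Group G] [Finite G]
    (hpr : ∀ r : ℕ, r.Prime → r ∣ Nat.card G → r = 2 ∨ r = 3 ∨ r = 7 ∨ r = 13)
    (h7 : ∀ g : G, 7 ∣ orderOf g → orderOf g = 7) (h13 : ∀ g : G, 13 ∣ orderOf g → orderOf g = 13)
    (h6 : ∃ g : G, orderOf g = 6) (r s : ℕ) (hr : r.Prime) (hs : s.Prime) (hrs : r ≠ s) :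
    (∃ x : G, orderOf x = r * s) ↔ r * s = 6 := by
  constructor
  · rintro ⟨x, hx⟩
    have hd : r * s ∣ Nat.card G := hx ▸ orderOf_dvd_natCard x
    have r1 := hpr r hr (dvd_trans (Dvd.intro _ rfl) hd)
    have s1 := hpr s hs (dvd_trans (Dvd.intro_left _ rfl) hd)
    have a7 : r ≠ 7 := by
      rintro rfl
      have := h7 x (hx ▸ Dvd.intro _ rfl)
      rw [hx] at this
      have := hs.two_le
      omega
    have a13 : r ≠ 13 := by
      rintro rfl
      have := h13 x (hx ▸ Dvd.intro _ rfl)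
      rw [hx] at this
      have := hs.two_le
      omega
    have b7 : s ≠ 7 := by
      rintro rfl
      have := h7 x (hx ▸ Dvd.intro_left _ rfl)
      rw [hx] at this
      have := hr.two_le
      omega
    have b13 : s ≠ 13 := by
      rintro rfl
      have := h13 x (hx ▸ Dvd.intro_left _ rfl)
      rw [hx] at this
      have := hr.two_le
      omega
    rcases r1 with rfl | rfl | rfl | rfl <;> rcases s1 with rfl | rfl | rfl | rfl <;> simp_all
  · intro h
    rw [h]
    exact h6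

end Cfsg.Agent.Lib.Helper27.PC
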